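import Mathlib

/-!
# S4816, EK tools E5 and E6 (helper88)

* `smul_eq_of_no_fixed` (E5): `y ^ s = 1`, `s` prime, `A` abelian normalised by `y`, no `|A|`-torsion in `V`, `y` without
  non-zero fixed vectors: every `a (y a y⁻¹)⁻¹` acts trivially on `V`. `exists_fixed`, `exists_proper` : the usual forms.
* `exists_gen` (E6): generation by few conjugates of a Sylow subgroup; `card_le_index_pow` : `|V| ≤ |V : C_V(P)|^(k+1)`;
  `index_le_card_sylow` : `|V : C_V(P)| ≤ n_p`; `card_le_sylow_pow` : `|V| ≤ n_p^(k+1)`, `(p+1)^k ≤ |H : P|`.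
-/

set_option autoImplicit false

namespace Cfsg.Agent.H88.RIM

open scoped Pointwise

section T3

variable {H V : Type*} [Group H] [AddCommGroup V] [DistribMulAction H V]

/-- **E5.** -/
theorem smul_eq_of_no_fixed {s : ℕ} (hs : s.Prime) {y : H} (hy : y ^ s = 1) (A : Subgroup H) [Finite A]
    (hn : ∀ a ∈ A, y * a * y⁻¹ ∈ A) (hab : ∀ a ∈ A, ∀ b ∈ A, a * b = b * a)
    (htor : ∀ v : V, Nat.card A • v = 0 → v = 0) (hfix : ∀ v : V, y • v = v → v = 0)
    {a : H} (ha : a ∈ A) (v : V) : (a * (y * a * y⁻¹)⁻¹) • v = v := by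
  classical
  have : Fintype A := Fintype.ofFinite A
  have hnj : ∀ (j : ℕ) (a : H), a ∈ A → y ^ j * a * (y ^ j)⁻¹ ∈ A := by
    intro j
    induction j with
    | zero => intro a ha; simpa using ha
    | succ j ih =>
      intro a ha
      have := ih _ (hn a ha)
      have e : y ^ (j + 1) * a * (y ^ (j + 1))⁻¹ = y ^ j * (y * a * y⁻¹) * (y ^ j)⁻¹ := by
        rw [pow_succ]; group
      rwa [e]
  -- the operator `Σ_j (a y a⁻¹)^j` is zero
  have h0 : ∀ (a : H) (v : V), ∑ j ∈ Finset.range s, (a * y ^ j * a⁻¹) • v = 0 := by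
    intro a v
    set w : V := ∑ j ∈ Finset.range s, (y ^ j) • (a⁻¹ • v) with hw
    have h1 : y • w = w := by
      rw [hw, Finset.smul_sum]
      have h2 := Finset.sum_range_succ (fun j => (y ^ j) • (a⁻¹ • v)) s
      have h3 := Finset.sum_range_succ' (fun j => (y ^ j) • (a⁻¹ • v)) s
      rw [hy, one_smul] at h2
      rw [pow_zero, one_smul, h2] at h3
      have h4 := add_right_cancel h3
      rw [h4]
      refine Finset.sum_congr rfl fun j _ => ?_
      rw [smul_smul, ← pow_succ']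
    have h5 := hfix w h1
    have h6 : ∑ j ∈ Finset.range s, (a * y ^ j * a⁻¹) • v = a • w := by
      rw [hw, Finset.smul_sum]
      refine Finset.sum_congr rfl fun j _ => ?_
      rw [smul_smul, smul_smul, mul_assoc]
    rw [h6, h5, smul_zero]
  -- the sums `S j v = Σ_a (a (y^j a y^-j)⁻¹) • v` are fixed by the image
  let S : ℕ → V → V := fun j v => ∑ a : A, ((a : H) * (y ^ j * (a : H) * (y ^ j)⁻¹)⁻¹) • v
  have hS : ∀ j v, ∀ c ∈ A, (c * (y ^ j * c * (y ^ j)⁻¹)⁻¹) • S j v = S j v := by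
    intro j v c hc
    show _ • (∑ a : A, _) = _
    rw [Finset.smul_sum]
    refine Fintype.sum_equiv (Equiv.mulLeft (⟨c, hc⟩ : A)) _ _ fun a => ?_
    rw [smul_smul]
    congr 1
    show _ = (c * (a : H)) * (y ^ j * (c * (a : H)) * (y ^ j)⁻¹)⁻¹
    have e1 : y ^ j * (c * (a : H)) * (y ^ j)⁻¹ = (y ^ j * c * (y ^ j)⁻¹) * (y ^ j * (a : H) * (y ^ j)⁻¹) := by group
    have h1 := hnj j c hc
    have h2 := hnj j a a.2
    rw [e1, hab _ h1 _ h2, mul_inv_rev _ (y ^ j * c * (y ^ j)⁻¹)]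
    have h3 := hab _ (A.inv_mem h1) _ a.2
    calc c * (y ^ j * c * (y ^ j)⁻¹)⁻¹ * ((a : H) * (y ^ j * (a : H) * (y ^ j)⁻¹)⁻¹)
        = c * ((y ^ j * c * (y ^ j)⁻¹)⁻¹ * (a : H)) * (y ^ j * (a : H) * (y ^ j)⁻¹)⁻¹ := by group
      _ = c * ((a : H) * (y ^ j * c * (y ^ j)⁻¹)⁻¹) * (y ^ j * (a : H) * (y ^ j)⁻¹)⁻¹ := by rw [h3]
      _ = _ := by group
  -- the images for `j` prime to `s` are all the same
  have hfixS : ∀ j, j ∈ Finset.range s → j ≠ 0 → ∀ v, (a * (y * a * y⁻¹)⁻¹) • S j v = S j v := by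
    intro j hj hj0 v
    rw [Finset.mem_range] at hj
    have hco : Nat.Coprime j s := (hs.coprime_iff_not_dvd.2 (Nat.not_dvd_of_pos_of_lt (Nat.pos_of_ne_zero hj0) hj)).symm
    obtain ⟨k, hk⟩ : ∃ k, (y ^ j) ^ k = y := by
      obtain ⟨k, hk⟩ := Nat.exists_mul_mod_eq_one_of_coprime hco hs.one_lt
      refine ⟨k, ?_⟩
      rw [← pow_mul, ← Nat.div_add_mod (j * k) s, hk.2, pow_add, pow_mul, hy, one_pow, one_mul, pow_one]
    -- by induction `a (z^k a z^-k)⁻¹` fixes `S j v`, `z = y^j`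
    have key : ∀ (k : ℕ) (a : H), a ∈ A →
        (a * ((y ^ j) ^ k * a * ((y ^ j) ^ k)⁻¹)⁻¹) • S j v = S j v := by
      intro k
      induction k with
      | zero => intro a _; simp
      | succ k ih =>
        intro a ha
        have hz := hnj j a ha
        have h1 := ih _ hz
        have h2 := hS j v a ha
        have e : a * ((y ^ j) ^ (k + 1) * a * ((y ^ j) ^ (k + 1))⁻¹)⁻¹ =
            (a * (y ^ j * a * (y ^ j)⁻¹)⁻¹) * ((y ^ j * a * (y ^ j)⁻¹) *
              ((y ^ j) ^ k * (y ^ j * a * (y ^ j)⁻¹) * ((y ^ j) ^ k)⁻¹)⁻¹) := by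
          rw [pow_succ]; group
        rw [e, mul_smul, h1, h2]
    have h1 := key k a ha
    rwa [hk] at h1
  -- the sum over `A` of `h0`
  have hsum : Nat.card A • v + ∑ j ∈ (Finset.range s).erase 0, S j ((y ^ j) • v) = 0 := by
    have h1 : ∑ a : A, ∑ j ∈ Finset.range s, ((a : H) * y ^ j * (a : H)⁻¹) • v = 0 :=
      Finset.sum_eq_zero fun a _ => h0 a v
    rw [Finset.sum_comm] at h1
    have h2 : ∀ j, ∑ a : A, ((a : H) * y ^ j * (a : H)⁻¹) • v = S j ((y ^ j) • v) := by
      intro j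
      refine Finset.sum_congr rfl fun a _ => ?_
      rw [smul_smul]
      congr 1
      group
    simp only [h2] at h1
    rw [← Finset.add_sum_erase _ _ (Finset.mem_range.2 hs.pos)] at h1
    have h3 : S 0 ((y ^ 0) • v) = Nat.card A • v := by
      show ∑ a : A, _ = _
      simp
    rwa [h3] at h1
  have h1 : (a * (y * a * y⁻¹)⁻¹) • (Nat.card A • v) = Nat.card A • v := by
    have e : Nat.card A • v = - ∑ j ∈ (Finset.range s).erase 0, S j ((y ^ j) • v) := eq_neg_of_add_eq_zero_left hsum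
    rw [e, smul_neg, Finset.smul_sum]
    congr 1
    refine Finset.sum_congr rfl fun j hj => ?_
    exact hfixS j (Finset.mem_of_mem_erase hj) (Finset.ne_of_mem_erase hj) _
  have h2 : Nat.card A • ((a * (y * a * y⁻¹)⁻¹) • v - v) = 0 := by
    rw [smul_sub, smul_comm, h1, sub_self]
  exact sub_eq_zero.1 (htor _ h2)

/-- **E5**: `y` of prime order normalises the abelian `p'`-subgroup `A` and does not centralise it; then `y` has a non-zero
fixed vector in every faithful `F_p`-module. -/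
theorem exists_fixed {p s : ℕ} (hp : p.Prime) (hs : s.Prime) {y : H} (hy : y ^ s = 1) (A : Subgroup H) [Finite A]
    (hn : ∀ a ∈ A, y * a * y⁻¹ ∈ A) (hab : ∀ a ∈ A, ∀ b ∈ A, a * b = b * a) (hpA : ¬ p ∣ Nat.card A)
    (hexp : ∀ v : V, p • v = 0) (hfaith : ∀ h ∈ A, (∀ v : V, h • v = v) → h = 1)
    (hne : ∃ a ∈ A, y * a * y⁻¹ ≠ a) : ∃ v : V, v ≠ 0 ∧ y • v = v := by
  by_contra hcon
  have hfix : ∀ v : V, y • v = v → v = 0 := by
    intro v hv
    by_contra h0
    exact hcon ⟨v, h0, hv⟩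
  have htor : ∀ v : V, Nat.card A • v = 0 → v = 0 := by
    intro v hv
    have h1 : Nat.gcd (Nat.card A) p = 1 := Nat.Coprime.symm ((hp.coprime_iff_not_dvd).2 hpA)
    have h2 := Nat.gcd_eq_gcd_ab (Nat.card A) p
    rw [h1, Nat.cast_one] at h2
    rw [← one_smul ℤ v, h2, add_smul, mul_comm, mul_comm (p : ℤ), mul_smul, mul_smul, natCast_zsmul, natCast_zsmul, hv,
      hexp, smul_zero, smul_zero, add_zero]
  obtain ⟨a, ha, hne⟩ := hne
  have h1 : a * (y * a * y⁻¹)⁻¹ = 1 :=
    hfaith _ (A.mul_mem ha (A.inv_mem (hn a ha))) fun v => smul_eq_of_no_fixed hs hy A hn hab htor hfix ha v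
  exact hne (mul_inv_eq_one.1 h1).symm

/-- **E5, second form**: if moreover `V` is irreducible, not trivial, and all orbits have size prime to `p`, then a proper
subgroup of `p'`-index contains `y`. -/
theorem exists_proper [Finite H] {p s : ℕ} (hp : p.Prime) (hs : s.Prime) {y : H} (hy : y ^ s = 1) (A : Subgroup H)
    (hn : ∀ a ∈ A, y * a * y⁻¹ ∈ A) (hab : ∀ a ∈ A, ∀ b ∈ A, a * b = b * a) (hpA : ¬ p ∣ Nat.card A)
    (hexp : ∀ v : V, p • v = 0) (hfaith : ∀ h ∈ A, (∀ v : V, h • v = v) → h = 1)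
    (hne : ∃ a ∈ A, y * a * y⁻¹ ≠ a) (h0 : ∀ v : V, (∀ h : H, h • v = v) → v = 0)
    (horb : ∀ v : V, ¬ p ∣ (MulAction.stabilizer H v).index) : ∃ M : Subgroup H, M ≠ ⊤ ∧ y ∈ M ∧ ¬ p ∣ M.index := by
  obtain ⟨v, hv0, hv⟩ := exists_fixed hp hs hy A hn hab hpA hexp hfaith hne
  refine ⟨MulAction.stabilizer H v, ?_, hv, horb v⟩
  intro h
  apply hv0
  apply h0
  intro g
  have : g ∈ MulAction.stabilizer H v := by rw [h]; exact Subgroup.mem_top g
  exact this

end T3

section gen

variable {H : Type*} [Group H] [Finite H]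

/-- a Sylow subgroup outside a subgroup of `p'`-index -/
theorem succ_le_relIndex {p : ℕ} [hp : Fact p.Prime] {B C Q : Subgroup H} (hQC : Q ≤ C) (hQB : ¬ Q ≤ B)
    (hQ : IsPGroup p Q) (hi : ¬ p ∣ B.relIndex C) : p + 1 ≤ B.relIndex C := by
  have h1 : B.relIndex Q ≤ B.relIndex C :=
    Subgroup.relIndex_le_of_le_right hQC (by rw [Subgroup.relIndex]; exact Subgroup.index_ne_zero_of_finite)
  have h2 : B.relIndex Q ≠ 1 := fun e => hQB (Subgroup.relIndex_eq_one.1 e)
  have h3 : p ∣ B.relIndex Q := by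
    obtain ⟨n, hn⟩ := hQ.index (B.subgroupOf Q)
    rw [Subgroup.relIndex] at h2 ⊢
    rw [hn] at h2 ⊢
    rcases Nat.eq_zero_or_pos n with rfl | h
    · exact absurd (pow_zero p) h2
    · exact dvd_pow_self p h.ne'
  have h4 : 0 < B.relIndex Q := Nat.pos_of_ne_zero (by rw [Subgroup.relIndex]; exact Subgroup.index_ne_zero_of_finite)
  have h5 : p ≤ B.relIndex C := (Nat.le_of_dvd h4 h3).trans h1
  rcases h5.lt_or_eq with h6 | h6
  · exact h6
  · exact absurd (h6 ▸ dvd_rfl) hi

/-- **E6, generation**: a group which is the normal closure of its Sylow subgroup `P` is generated by `k + 1` conjugates of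
`P` with `(p+1)^k ≤ |H : P|`. -/
theorem exists_gen {p : ℕ} [hp : Fact p.Prime] (P : Sylow p H)
    (hN : ∀ M : Subgroup H, M.Normal → (P : Subgroup H) ≤ M → M = ⊤) :
    ∀ (B : Subgroup H), (P : Subgroup H) ≤ B → ∃ (k : ℕ) (g : Fin k → H), (p + 1) ^ k ≤ B.index ∧
      B ⊔ ⨆ i, MulAut.conj (g i) • (P : Subgroup H) = ⊤ := by
  intro B
  induction h : B.index using Nat.strong_induction_on generalizing B with
  | _ n ih =>
    intro hB
    by_cases ht : B = ⊤
    · refine ⟨0, fun i => i.elim0, ?_, ?_⟩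
      · rw [pow_zero, ← h, ht, Subgroup.index_top]
      · rw [ht, top_sup_eq]
    obtain ⟨g, hg⟩ : ∃ g : H, ¬ MulAut.conj g • (P : Subgroup H) ≤ B := by
      by_contra hcon
      push Not at hcon
      apply ht
      refine top_le_iff.1 ?_
      have h1 := hN B.normalCore B.normalCore_normal (fun x hx => by
        intro g
        exact hcon g (Subgroup.smul_mem_pointwise_smul _ (MulAut.conj g) _ hx))
      rw [← h1]
      exact B.normalCore_le
    set C : Subgroup H := B ⊔ MulAut.conj g • (P : Subgroup H) with hC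
    have hBC : B ≤ C := le_sup_left
    have hPi : ¬ p ∣ B.relIndex C := by
      intro hd
      have h1 : p ∣ (P : Subgroup H).index := by
        rw [← Subgroup.relIndex_mul_index hB, ← Subgroup.relIndex_mul_index hBC]
        exact Dvd.dvd.mul_left (Dvd.dvd.mul_right hd _) _
      exact P.not_dvd_index h1
    have h2 := succ_le_relIndex (Q := MulAut.conj g • (P : Subgroup H)) le_sup_right hg
      (P.2.map (MulAut.conj g).toMonoidHom) hPi
    have h3 := Subgroup.relIndex_mul_index hBC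
    have h4 : 0 < C.index := Nat.pos_of_ne_zero Subgroup.index_ne_zero_of_finite
    have hp1 := hp.out.one_lt
    have h5 : C.index < n := by
      rw [← h, ← h3]
      nlinarith
    obtain ⟨k, g', h6, h7⟩ := ih _ h5 C rfl (hB.trans hBC)
    refine ⟨k + 1, Fin.cons g g', ?_, ?_⟩
    · rw [pow_succ, ← h, ← h3, mul_comm]
      exact Nat.mul_le_mul h2 h6
    · rw [← top_le_iff, ← h7, hC]
      refine sup_le (sup_le le_sup_left ?_) ?_
      · refine le_sup_of_le_right ?_
        exact le_iSup (fun i => MulAut.conj ((Fin.cons g g' : Fin (k + 1) → H) i) • (P : Subgroup H)) 0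
      · refine le_sup_of_le_right (iSup_le fun i => ?_)
        exact le_iSup (fun i => MulAut.conj ((Fin.cons g g' : Fin (k + 1) → H) i) • (P : Subgroup H)) i.succ

end gen

section bound

variable {H V : Type*} [Group H] [AddCommGroup V] [DistribMulAction H V]

/-- the fixed points of a subgroup in `V` -/
def fxV (V : Type*) [AddCommGroup V] [DistribMulAction H V] (P : Subgroup H) : AddSubgroup V where
  carrier := {v | ∀ g ∈ P, g • v = v}
  add_mem' {a b} ha hb g hg := by rw [smul_add, ha g hg, hb g hg]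
  zero_mem' g _ := smul_zero g
  neg_mem' {a} ha g hg := by rw [smul_neg, ha g hg]

theorem mem_fxV {P : Subgroup H} {v : V} : v ∈ fxV V P ↔ ∀ g ∈ P, g • v = v := Iff.rfl

theorem fxV_conj (g : H) (P : Subgroup H) :
    fxV V (MulAut.conj g • P) = (fxV V P).map (DistribSMul.toAddMonoidHom V g) := by
  ext v
  rw [AddSubgroup.mem_map]
  constructor
  · intro hv
    refine ⟨g⁻¹ • v, fun x hx => ?_, by simp⟩
    have h1 := hv (g * x * g⁻¹) ⟨x, hx, rfl⟩
    calc x • g⁻¹ • v = g⁻¹ • ((g * x * g⁻¹) • v) := by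
          rw [smul_smul, smul_smul]
          congr 1
          group
      _ = g⁻¹ • v := by rw [h1]
  · rintro ⟨w, hw, rfl⟩ x hx
    obtain ⟨y, hy, rfl⟩ := hx
    show (g * y * g⁻¹) • (g • w) = g • w
    rw [smul_smul, inv_mul_cancel_right, mul_smul, hw y hy]

theorem index_fxV_conj (g : H) (P : Subgroup H) : (fxV V (MulAut.conj g • P)).index = (fxV V P).index := by
  rw [fxV_conj]
  exact AddSubgroup.index_map_of_bijective (MulAction.bijective g) _

/-- **E6, module form** -/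
theorem card_le_pow [Finite V] (h0 : ∀ v : V, (∀ h : H, h • v = v) → v = 0) (P : Subgroup H) {k : ℕ} (g : Fin k → H)
    (hgen : P ⊔ ⨆ i, MulAut.conj (g i) • P = ⊤) : Nat.card V ≤ (fxV V P).index ^ (k + 1) := by
  have h1 : fxV V P ⊓ ⨅ i, fxV V (MulAut.conj (g i) • P) = ⊥ := by
    rw [eq_bot_iff]
    rintro v ⟨hv1, hv2⟩
    have hv2 : ∀ i, v ∈ fxV V (MulAut.conj (g i) • P) := by simpa [AddSubgroup.mem_iInf] using hv2
    apply h0
    intro h
    have h2 : (⊤ : Subgroup H) ≤ MulAction.stabilizer H v := by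
      rw [← hgen]
      refine sup_le (fun x hx => hv1 x hx) (iSup_le fun i x hx => hv2 i x hx)
    exact h2 (Subgroup.mem_top h)
  calc Nat.card V = (⊥ : AddSubgroup V).index := by rw [AddSubgroup.index_bot]
    _ = (fxV V P ⊓ ⨅ i, fxV V (MulAut.conj (g i) • P)).index := by rw [h1]
    _ ≤ (fxV V P).index * (⨅ i, fxV V (MulAut.conj (g i) • P)).index := AddSubgroup.index_inf_le
    _ ≤ (fxV V P).index * ∏ i, (fxV V (MulAut.conj (g i) • P)).index :=
        Nat.mul_le_mul_left _ (AddSubgroup.index_iInf_le _)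
    _ = (fxV V P).index ^ (k + 1) := by
        simp only [index_fxV_conj, Finset.prod_const, Finset.card_univ, Fintype.card_fin]
        rw [pow_succ, mul_comm]

/-- **E6**: `|V| ≤ |V : C_V(P)|^(k+1)` with `(p+1)^k ≤ |H : P|`. -/
theorem card_le_index_pow [Finite H] [Finite V] {p : ℕ} [hp : Fact p.Prime] (P : Sylow p H)
    (hN : ∀ M : Subgroup H, M.Normal → (P : Subgroup H) ≤ M → M = ⊤)
    (h0 : ∀ v : V, (∀ h : H, h • v = v) → v = 0) :
    ∃ k : ℕ, (p + 1) ^ k ≤ (P : Subgroup H).index ∧ Nat.card V ≤ (fxV V (P : Subgroup H)).index ^ (k + 1) := by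
  obtain ⟨k, g, h1, h2⟩ := exists_gen P hN P le_rfl
  exact ⟨k, h1, card_le_pow h0 _ g h2⟩

/-- the union bound: if every vector is fixed by a Sylow subgroup, `|V : C_V(P)| ≤ n_p` -/
theorem index_le_card_sylow [Finite H] [Finite V] {p : ℕ} [hp : Fact p.Prime] (P : Sylow p H)
    (horb : ∀ v : V, ¬ p ∣ (MulAction.stabilizer H v).index) :
    (fxV V (P : Subgroup H)).index ≤ Nat.card (Sylow p H) := by
  classical
  have : Fintype V := Fintype.ofFinite V
  have : Fintype (Sylow p H) := Fintype.ofFinite _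
  have hcov : ∀ v : V, ∃ Q : Sylow p H, v ∈ fxV V (Q : Subgroup H) := by
    intro v
    have h1 : ¬ p ∣ Nat.card (MulAction.orbit H v) := by
      rw [Nat.card_congr (MulAction.orbitEquivQuotientStabilizer H v)]
      exact horb v
    obtain ⟨⟨w, g, rfl⟩, hw⟩ := P.2.nonempty_fixed_point_of_prime_not_dvd_card (MulAction.orbit H v) h1
    refine ⟨g⁻¹ • P, ?_⟩
    rintro x ⟨y, hy, rfl⟩
    have h2 := congrArg Subtype.val (hw ⟨y, hy⟩)
    have h3 : y • (g • v) = g • v := h2
    show (g⁻¹ * y * g⁻¹⁻¹) • v = v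
    rw [inv_inv, mul_smul, mul_smul, h3, inv_smul_smul]
  have hcard : ∀ Q : Sylow p H, Nat.card (fxV V (Q : Subgroup H)) = Nat.card (fxV V (P : Subgroup H)) := by
    intro Q
    obtain ⟨g, rfl⟩ := MulAction.exists_smul_eq H P Q
    have h1 := index_fxV_conj (V := V) g (P : Subgroup H)
    have h2 := (fxV V (P : Subgroup H)).card_mul_index
    have h3 := (fxV V (MulAut.conj g • (P : Subgroup H))).card_mul_index
    rw [h1, ← h2] at h3
    exact Nat.eq_of_mul_eq_mul_right (Nat.pos_of_ne_zero AddSubgroup.index_ne_zero_of_finite) h3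
  have h1 : Nat.card V ≤ Nat.card (Sylow p H) * Nat.card (fxV V (P : Subgroup H)) := by
    have h2 : (Finset.univ : Finset V) ⊆ Finset.univ.biUnion
        fun Q : Sylow p H => Finset.univ.filter fun v => v ∈ fxV V (Q : Subgroup H) := by
      intro v _
      obtain ⟨Q, hQ⟩ := hcov v
      exact Finset.mem_biUnion.2 ⟨Q, Finset.mem_univ _, Finset.mem_filter.2 ⟨Finset.mem_univ _, hQ⟩⟩
    have h3 := (Finset.card_le_card h2).trans Finset.card_biUnion_le
    have h4 : ∀ Q : Sylow p H, (Finset.univ.filter fun v => v ∈ fxV V (Q : Subgroup H)).card =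
        Nat.card (fxV V (P : Subgroup H)) := by
      intro Q
      rw [← hcard Q, Nat.card_eq_fintype_card, Fintype.card_subtype]
    rw [Finset.sum_congr rfl (fun Q _ => h4 Q), Finset.sum_const, smul_eq_mul, Finset.card_univ, Finset.card_univ,
      ← Nat.card_eq_fintype_card, ← Nat.card_eq_fintype_card] at h3
    exact h3
  rw [← (fxV V (P : Subgroup H)).card_mul_index, mul_comm] at h1
  exact Nat.le_of_mul_le_mul_right h1 Nat.card_pos

/-- **E2 + E6**: all orbits of size prime to `p`, no fixed vector, `H` the normal closure of `P`: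
`|V| ≤ n_p ^ (k+1)`, `(p+1)^k ≤ |H : P|`. -/
theorem card_le_sylow_pow [Finite H] [Finite V] {p : ℕ} [hp : Fact p.Prime] (P : Sylow p H)
    (hN : ∀ M : Subgroup H, M.Normal → (P : Subgroup H) ≤ M → M = ⊤)
    (h0 : ∀ v : V, (∀ h : H, h • v = v) → v = 0)
    (horb : ∀ v : V, ¬ p ∣ (MulAction.stabilizer H v).index) :
    ∃ k : ℕ, (p + 1) ^ k ≤ (P : Subgroup H).index ∧ Nat.card V ≤ Nat.card (Sylow p H) ^ (k + 1) := by
  obtain ⟨k, h1, h2⟩ := card_le_index_pow P hN h0
  exact ⟨k, h1, h2.trans (Nat.pow_le_pow_left (index_le_card_sylow P horb) _)⟩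

end bound

end Cfsg.Agent.H88.RIM
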